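import Mathlib
import Cfsg.Agent.Lib.Helper5.Invol
import Cfsg.Agent.S0237
import Cfsg.Agent.S0238

set_option autoImplicit false

namespace Cfsg.Agent.Lib.Helper5

/-- number of pairs of involutions with product `x` -/
noncomputable def Bcount {G : Type*} [Group G] (x : G) : ℕ :=
  Nat.card {p : G × G // orderOf p.1 = 2 ∧ orderOf p.2 = 2 ∧ p.1 * p.2 = x}

theorem sum_Bcount {G : Type*} [Group G] [Fintype G] :
    ∑ x : G, Bcount x = Nat.card {t : G // orderOf t = 2} ^ 2 := by
  classical
  have h1 : ∀ x : G, Bcount x = ((Finset.univ.filter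
      (fun p : G × G => orderOf p.1 = 2 ∧ orderOf p.2 = 2)).filter (fun p => p.1 * p.2 = x)).card := by
    intro x
    unfold Bcount
    apply Nat.subtype_card
    intro p
    simp [and_assoc]
  simp_rw [h1]
  rw [← Finset.card_eq_sum_card_fiberwise (f := fun p : G × G => p.1 * p.2) (t := Finset.univ)
    (fun _ _ => Finset.mem_univ _)]
  have h2 : (Finset.univ.filter (fun p : G × G => orderOf p.1 = 2 ∧ orderOf p.2 = 2)) =
      (Finset.univ.filter (fun t : G => orderOf t = 2)) ×ˢ
        (Finset.univ.filter (fun t : G => orderOf t = 2)) := by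
    ext p; simp
  have h3 : Nat.card {t : G // orderOf t = 2} =
      (Finset.univ.filter (fun t : G => orderOf t = 2)).card :=
    Nat.subtype_card _ (by simp)
  rw [h2, Finset.card_product, h3, sq]

theorem Bcount_one {G : Type*} [Group G] :
    Bcount (1 : G) = Nat.card {t : G // orderOf t = 2} := by
  apply Nat.card_congr
  refine ⟨fun p => ⟨p.1.1, p.2.1⟩, fun t => ⟨(t.1, t.1), t.2, t.2, sq_of_order_two t.2⟩, ?_, ?_⟩
  · rintro ⟨⟨u, v⟩, hu, hv, huv⟩
    apply Subtype.ext
    simp only at hu hv huv ⊢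
    have : v = u⁻¹ := eq_inv_of_mul_eq_one_right huv
    rw [this, inv_of_order_two hu]
  · rintro ⟨t, ht⟩; rfl

/-- extended centralizer -/
def extCentralizer {G : Type*} [Group G] (x : G) : Subgroup G where
  carrier := {g | g * x * g⁻¹ = x ∨ g * x * g⁻¹ = x⁻¹}
  mul_mem' := by
    intro a b ha hb
    have e : a * b * x * (a * b)⁻¹ = a * (b * x * b⁻¹) * a⁻¹ := by group
    have e2 : a * x⁻¹ * a⁻¹ = (a * x * a⁻¹)⁻¹ := by group
    rcases ha with ha | ha <;> rcases hb with hb | hb
    · left; rw [e, hb, ha]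
    · right; rw [e, hb, e2, ha]
    · right; rw [e, hb, ha]
    · left; rw [e, hb, e2, ha, inv_inv]
  one_mem' := by left; simp
  inv_mem' := by
    intro a ha
    have e2 : a * x⁻¹ * a⁻¹ = (a * x * a⁻¹)⁻¹ := by group
    rcases ha with ha | ha
    · left
      have : a⁻¹ * x * a⁻¹⁻¹ = a⁻¹ * (a * x * a⁻¹) * a := by rw [ha]; group
      rw [this]; group
    · right
      have h' : a * x⁻¹ * a⁻¹ = x := by rw [e2, ha, inv_inv]
      have : a⁻¹ * x * a⁻¹⁻¹ = a⁻¹ * (a * x⁻¹ * a⁻¹) * a := by rw [h']; group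
      rw [this]; group

theorem mem_extCentralizer {G : Type*} [Group G] (x g : G) :
    g ∈ extCentralizer x ↔ (g * x * g⁻¹ = x ∨ g * x * g⁻¹ = x⁻¹) := Iff.rfl

theorem card_extCentralizer {G : Type*} [Group G] [Finite G] (x : G) (hreal : IsConj x x⁻¹)
    (hne : x ≠ x⁻¹) :
    Nat.card (extCentralizer x) = 2 * Nat.card (Subgroup.centralizer ({x} : Set G)) := by
  classical
  haveI := Fintype.ofFinite G
  have h1 : Nat.card (extCentralizer x) =
      (Finset.univ.filter (fun g : G => g * x * g⁻¹ = x ∨ g * x * g⁻¹ = x⁻¹)).card :=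
    Nat.subtype_card _ (by intro g; simp [mem_extCentralizer])
  have h2 : Nat.card (Subgroup.centralizer ({x} : Set G)) =
      (Finset.univ.filter (fun g : G => g * x * g⁻¹ = x)).card :=
    Nat.subtype_card _ (by
      intro g
      simp only [Finset.mem_filter, Finset.mem_univ, true_and]
      rw [Cfsg.Agent.S0237.mem_centralizer_singleton]
      constructor
      · intro h
        calc x * g = (g * x * g⁻¹) * g := by rw [h]
          _ = g * x := by group
      · intro h; rw [← h]; group)
  have h3 : Nat.card {g : G // g * x * g⁻¹ = x⁻¹} =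
      (Finset.univ.filter (fun g : G => g * x * g⁻¹ = x⁻¹)).card :=
    Nat.subtype_card _ (by simp)
  rw [h1, Finset.filter_or, Finset.card_union_of_disjoint, ← h2, ← h3,
    Cfsg.Agent.S0237.result x hreal, two_mul]
  rw [Finset.disjoint_filter]
  intro g _ h1 h2
  exact hne (h1.symm.trans h2)

end Cfsg.Agent.Lib.Helper5
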