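import Mathlib
import Cfsg.Agent.Lib.Helper5.Derang
import Cfsg.Agent.Lib.Helper8.SubgroupCount

set_option autoImplicit false

namespace Cfsg.Agent.Lib.Helper5

open MulAction Cfsg.Agent.Lib.Helper8

/-- If `N ⊴ H` is transitive on `X` and every element outside `N` has exactly one fixed point,
then `[H : N]` divides `|X| - 1`. -/
theorem index_dvd_card_sub_one {H X : Type*} [Group H] [Finite H] [MulAction H X] [Finite X]
    (N : Subgroup H) [N.Normal] (hNtr : MulAction.IsPretransitive N X)
    (hfix : ∀ h : H, Nat.card (MulAction.fixedBy X h) ≠ 1 → h ∈ N) (α : X) :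
    N.index ∣ Nat.card X - 1 := by
  classical
  have hsup : stabilizer H α ⊔ N = ⊤ := by
    rw [eq_top_iff]
    intro g _
    obtain ⟨d, hd⟩ := MulAction.exists_smul_eq N α (g • α)
    have hd' : (d : H) • α = g • α := hd
    have hdg : (d : H)⁻¹ * g ∈ stabilizer H α := by
      rw [mem_stabilizer_iff, mul_smul, ← hd', inv_smul_smul]
    have e : g = (d : H) * ((d : H)⁻¹ * g) := by group
    rw [e]
    exact Subgroup.mul_mem _ (Subgroup.mem_sup_right d.2) (Subgroup.mem_sup_left hdg)
  have hrel : N.relIndex (stabilizer H α) = N.index := by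
    rw [← Subgroup.relIndex_sup_right (stabilizer H α) N, hsup, Subgroup.relIndex_top_right]
  have hstab : ∀ x : SubMulAction.ofStabilizer H α,
      stabilizer (stabilizer H α) x ≤ N.subgroupOf (stabilizer H α) := by
    intro x h hh
    rw [Subgroup.mem_subgroupOf]
    apply hfix
    intro hcard
    rw [Nat.card_eq_one_iff_unique] at hcard
    obtain ⟨hsub, -⟩ := hcard
    have hα : (h : H) • α = α := h.2
    have hx : (h : H) • (x : X) = x := congrArg Subtype.val (mem_stabilizer_iff.1 hh)
    have h1 : (⟨α, hα⟩ : fixedBy X (h : H)) = ⟨(x : X), hx⟩ := Subsingleton.elim _ _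
    have h2 : α = (x : X) := congrArg Subtype.val h1
    exact (SubMulAction.mem_ofStabilizer_iff H α).1 x.2 h2.symm
  have hdvd : ∀ x : SubMulAction.ofStabilizer H α,
      N.index ∣ (stabilizer (stabilizer H α) x).index := by
    intro x
    rw [← hrel]
    exact Subgroup.index_dvd_of_le (hstab x)
  rw [← SubMulAction.nat_card_ofStabilizer_eq H α]
  exact h8_dvd_card_of_forall_dvd_index _ hdvd

/-- the closure of a conjugation-invariant set is normal -/
theorem closure_normal_of_conj_invariant {G : Type*} [Group G] (S : Set G)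
    (hS : ∀ g : G, ∀ x ∈ S, g * x * g⁻¹ ∈ S) : (Subgroup.closure S).Normal := by
  constructor
  intro n hn g
  have hle : (Subgroup.closure S).map (MulAut.conj g).toMonoidHom ≤ Subgroup.closure S := by
    rw [MonoidHom.map_closure]
    apply Subgroup.closure_mono
    rintro _ ⟨x, hx, rfl⟩
    exact hS g x hx
  exact hle ⟨n, hn, rfl⟩

/-- the set of derangements is conjugation invariant -/
theorem derangements_conj_invariant {G Ω : Type*} [Group G] [MulAction G Ω] (g : G) (x : G)
    (hx : ∀ ω : Ω, x • ω ≠ ω) : ∀ ω : Ω, (g * x * g⁻¹) • ω ≠ ω := by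
  intro ω hω
  apply hx (g⁻¹ • ω)
  rw [mul_smul, mul_smul] at hω
  have h1 := congrArg (fun y => g⁻¹ • y) hω
  simpa using h1

end Cfsg.Agent.Lib.Helper5
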