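import Mathlib
import Cfsg.Prelude.Def_ClassicalGeometry

set_option autoImplicit false

namespace Cfsg.Agent.Lib.Helper5

open Matrix

theorem polarVec_dot {F : Type*} [Field F] {n : ℕ} (Q : QuadraticForm F (Fin n → F)) (v x : Fin n → F) :
    Cfsg.polarVec ⇑Q v ⬝ᵥ x = QuadraticMap.polar ⇑Q v x := by
  have h := LinearMap.pi_apply_eq_sum_univ (QuadraticMap.polarBilin Q v) x
  simp only [QuadraticMap.polarBilin_apply_apply] at h
  rw [h]
  unfold Cfsg.polarVec dotProduct
  refine Finset.sum_congr rfl fun i _ => ?_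
  rw [smul_eq_mul, mul_comm]
  have e : (fun j => if i = j then (1 : F) else 0) = Pi.single i 1 := by
    ext j
    simp [Pi.single_apply, eq_comm]
  rw [e]

theorem det_one_add_vecMulVec {F : Type*} [CommRing F] {ι : Type*} [Fintype ι] [DecidableEq ι]
    (u v : ι → F) : (1 + vecMulVec u v).det = 1 + v ⬝ᵥ u := by
  rw [vecMulVec_eq (ι := Unit), det_one_add_replicateCol_mul_replicateRow]

theorem reflectionMatrix_mulVec {F : Type*} [Field F] {n : ℕ} (Q : QuadraticForm F (Fin n → F))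
    (v x : Fin n → F) :
    (Cfsg.reflectionMatrix ⇑Q v) *ᵥ x = x - ((Q v)⁻¹ * QuadraticMap.polar ⇑Q v x) • v := by
  unfold Cfsg.reflectionMatrix
  rw [Matrix.sub_mulVec, Matrix.one_mulVec, Matrix.smul_mulVec, Matrix.vecMulVec_mulVec, polarVec_dot,
    op_smul_eq_smul, smul_smul]

theorem siegelMatrix_mulVec {F : Type*} [Field F] {n : ℕ} (Q : QuadraticForm F (Fin n → F))
    (u v x : Fin n → F) (c : F) :
    (Cfsg.siegelMatrix ⇑Q u v c) *ᵥ x =
      x + (c * QuadraticMap.polar ⇑Q u x) • v - (c * QuadraticMap.polar ⇑Q v x) • u := by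
  unfold Cfsg.siegelMatrix
  rw [Matrix.add_mulVec, Matrix.one_mulVec, Matrix.smul_mulVec, Matrix.sub_mulVec,
    Matrix.vecMulVec_mulVec, Matrix.vecMulVec_mulVec, polarVec_dot, polarVec_dot,
    op_smul_eq_smul, op_smul_eq_smul, smul_sub, smul_smul, smul_smul, add_sub_assoc]

theorem matrix_ext_mulVec {F : Type*} [CommRing F] {ι : Type*} [Fintype ι] [DecidableEq ι]
    {M N : Matrix ι ι F} (h : ∀ x, M *ᵥ x = N *ᵥ x) : M = N := by
  apply Matrix.toLin'.injective
  apply LinearMap.ext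
  intro x
  simpa using h x

end Cfsg.Agent.Lib.Helper5
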