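import Mathlib
import Cfsg.Prelude.Def_ClassicalGeometry
import Cfsg.Agent.S0764

set_option autoImplicit false

namespace Cfsg.Agent.Lib.Helper5

open Matrix

section
variable {F : Type*} [Field F] (m : ℕ)

theorem sympForm_add_left (a b c : Fin m ⊕ Fin m → F) :
    Cfsg.sympForm m F (a + b) c = Cfsg.sympForm m F a c + Cfsg.sympForm m F b c := by
  unfold Cfsg.sympForm; rw [add_dotProduct]

theorem sympForm_add_right (a b c : Fin m ⊕ Fin m → F) :
    Cfsg.sympForm m F a (b + c) = Cfsg.sympForm m F a b + Cfsg.sympForm m F a c := by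
  unfold Cfsg.sympForm; rw [Matrix.mulVec_add, dotProduct_add]

theorem sympForm_smul_left (k : F) (a c : Fin m ⊕ Fin m → F) :
    Cfsg.sympForm m F (k • a) c = k * Cfsg.sympForm m F a c := by
  unfold Cfsg.sympForm; rw [smul_dotProduct, smul_eq_mul]

theorem sympForm_smul_right (k : F) (a c : Fin m ⊕ Fin m → F) :
    Cfsg.sympForm m F a (k • c) = k * Cfsg.sympForm m F a c := by
  unfold Cfsg.sympForm; rw [Matrix.mulVec_smul, dotProduct_smul, smul_eq_mul]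

theorem sympForm_self (a : Fin m ⊕ Fin m → F) : Cfsg.sympForm m F a a = 0 :=
  Cfsg.Agent.S0764.dot_J_self m a

theorem sympForm_swap (a b : Fin m ⊕ Fin m → F) :
    Cfsg.sympForm m F a b = - Cfsg.sympForm m F b a := by
  have h := sympForm_self m (a + b)
  rw [sympForm_add_left, sympForm_add_right, sympForm_add_right, sympForm_self, sympForm_self] at h
  linear_combination h

theorem sympForm_neg_left (a c : Fin m ⊕ Fin m → F) :
    Cfsg.sympForm m F (-a) c = - Cfsg.sympForm m F a c := by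
  unfold Cfsg.sympForm; rw [neg_dotProduct]

theorem sympForm_neg_right (a c : Fin m ⊕ Fin m → F) :
    Cfsg.sympForm m F a (-c) = - Cfsg.sympForm m F a c := by
  unfold Cfsg.sympForm; rw [Matrix.mulVec_neg, dotProduct_neg]

theorem sympForm_sub_left (a b c : Fin m ⊕ Fin m → F) :
    Cfsg.sympForm m F (a - b) c = Cfsg.sympForm m F a c - Cfsg.sympForm m F b c := by
  rw [sub_eq_add_neg, sympForm_add_left, sympForm_neg_left, sub_eq_add_neg]

theorem sympForm_sub_right (a b c : Fin m ⊕ Fin m → F) :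
    Cfsg.sympForm m F a (b - c) = Cfsg.sympForm m F a b - Cfsg.sympForm m F a c := by
  rw [sub_eq_add_neg, sympForm_add_right, sympForm_neg_right, sub_eq_add_neg]

theorem sympForm_zero_left (c : Fin m ⊕ Fin m → F) : Cfsg.sympForm m F 0 c = 0 := by
  unfold Cfsg.sympForm; rw [zero_dotProduct]

theorem sympForm_zero_right (c : Fin m ⊕ Fin m → F) : Cfsg.sympForm m F c 0 = 0 := by
  unfold Cfsg.sympForm; rw [Matrix.mulVec_zero, dotProduct_zero]

theorem exists_sympForm_ne_zero (u : Fin m ⊕ Fin m → F) (hu : u ≠ 0) :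
    ∃ a, Cfsg.sympForm m F u a ≠ 0 := by
  obtain ⟨i, hi⟩ : ∃ i, u i ≠ 0 := by
    by_contra hcon
    apply hu
    ext i
    by_contra hi
    exact hcon ⟨i, hi⟩
  refine ⟨-(Matrix.J (Fin m) F *ᵥ Pi.single i 1), ?_⟩
  unfold Cfsg.sympForm
  rw [Matrix.mulVec_neg, Cfsg.Agent.S0764.J_mulVec_J_mulVec, neg_neg, dotProduct_single, mul_one]
  exact hi

theorem sympTransvection_mulVec (w x : Fin m ⊕ Fin m → F) (c : F) :
    (Cfsg.sympTransvection m w c) *ᵥ x = x + (c * Cfsg.sympForm m F x w) • w := by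
  unfold Cfsg.sympTransvection Cfsg.sympForm
  rw [Matrix.add_mulVec, Matrix.one_mulVec, Matrix.smul_mulVec, Matrix.vecMulVec_mulVec, op_smul_eq_smul,
    smul_smul, dotProduct_comm]

theorem sympForm_mulVec_of_mem (A : Matrix (Fin m ⊕ Fin m) (Fin m ⊕ Fin m) F)
    (hA : A ∈ Matrix.symplecticGroup (Fin m) F) (u v : Fin m ⊕ Fin m → F) :
    Cfsg.sympForm m F (A *ᵥ u) (A *ᵥ v) = Cfsg.sympForm m F u v := by
  unfold Cfsg.sympForm
  rw [SymplecticGroup.mem_iff'] at hA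
  rw [Matrix.mulVec_mulVec, Matrix.dotProduct_mulVec, ← Matrix.vecMul_transpose, Matrix.vecMul_vecMul,
    ← Matrix.mul_assoc, hA, ← Matrix.dotProduct_mulVec]

/-- The subgroup of the symplectic group generated by the symplectic transvections. -/
def transvectionSubgroup (F : Type*) [Field F] (m : ℕ) : Subgroup (Matrix.symplecticGroup (Fin m) F) :=
  Subgroup.closure {A : Matrix.symplecticGroup (Fin m) F | ∃ (w : Fin m ⊕ Fin m → F) (c : F),
    (A : Matrix (Fin m ⊕ Fin m) (Fin m ⊕ Fin m) F) = Cfsg.sympTransvection m w c}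

theorem transvection_mem (w : Fin m ⊕ Fin m → F) (c : F) :
    (⟨Cfsg.sympTransvection m w c, Cfsg.Agent.S0764.result m w c⟩ : Matrix.symplecticGroup (Fin m) F) ∈
      transvectionSubgroup F m :=
  Subgroup.subset_closure ⟨w, c, rfl⟩

theorem trans1 (u u' : Fin m ⊕ Fin m → F) (h : Cfsg.sympForm m F u u' ≠ 0) :
    ∃ A ∈ transvectionSubgroup F m, (A : Matrix (Fin m ⊕ Fin m) (Fin m ⊕ Fin m) F) *ᵥ u = u' := by
  refine ⟨⟨Cfsg.sympTransvection m (u' - u) (Cfsg.sympForm m F u u')⁻¹, Cfsg.Agent.S0764.result _ _ _⟩,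
    transvection_mem _ _ _, ?_⟩
  change Cfsg.sympTransvection m (u' - u) _ *ᵥ u = u'
  rw [sympTransvection_mulVec, sympForm_sub_right, sympForm_self, sub_zero, inv_mul_cancel₀ h, one_smul]
  abel

theorem trans_vec (u u' : Fin m ⊕ Fin m → F) (hu : u ≠ 0) (hu' : u' ≠ 0) :
    ∃ A ∈ transvectionSubgroup F m, (A : Matrix (Fin m ⊕ Fin m) (Fin m ⊕ Fin m) F) *ᵥ u = u' := by
  by_cases h : Cfsg.sympForm m F u u' = 0
  · obtain ⟨z, hz1, hz2⟩ : ∃ z, Cfsg.sympForm m F u z ≠ 0 ∧ Cfsg.sympForm m F z u' ≠ 0 := by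
      obtain ⟨a, ha⟩ := exists_sympForm_ne_zero m u hu
      obtain ⟨b, hb⟩ := exists_sympForm_ne_zero m u' hu'
      by_cases h1 : Cfsg.sympForm m F u' a = 0
      · by_cases h2 : Cfsg.sympForm m F u b = 0
        · refine ⟨a + b, ?_, ?_⟩
          · rw [sympForm_add_right, h2, add_zero]; exact ha
          · rw [sympForm_swap, sympForm_add_right, h1, zero_add]; exact neg_ne_zero.mpr hb
        · exact ⟨b, h2, by rw [sympForm_swap]; exact neg_ne_zero.mpr hb⟩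
      · exact ⟨a, ha, by rw [sympForm_swap]; exact neg_ne_zero.mpr h1⟩
    obtain ⟨A, hA, hAu⟩ := trans1 m u z hz1
    obtain ⟨B, hB, hBz⟩ := trans1 m z u' hz2
    refine ⟨B * A, Subgroup.mul_mem _ hB hA, ?_⟩
    change ((B : Matrix (Fin m ⊕ Fin m) (Fin m ⊕ Fin m) F) * (A : Matrix (Fin m ⊕ Fin m) (Fin m ⊕ Fin m) F)) *ᵥ u = u'
    rw [← Matrix.mulVec_mulVec, hAu, hBz]
  · exact trans1 m u u' h

theorem trans2a (u v v' : Fin m ⊕ Fin m → F) (h : Cfsg.sympForm m F u v = 1)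
    (h' : Cfsg.sympForm m F u v' = 1) (hvv : Cfsg.sympForm m F v v' ≠ 0) :
    ∃ A ∈ transvectionSubgroup F m, (A : Matrix (Fin m ⊕ Fin m) (Fin m ⊕ Fin m) F) *ᵥ u = u ∧
      (A : Matrix (Fin m ⊕ Fin m) (Fin m ⊕ Fin m) F) *ᵥ v = v' := by
  refine ⟨⟨Cfsg.sympTransvection m (v' - v) (Cfsg.sympForm m F v v')⁻¹, Cfsg.Agent.S0764.result _ _ _⟩,
    transvection_mem _ _ _, ?_, ?_⟩
  · change Cfsg.sympTransvection m (v' - v) _ *ᵥ u = u
    rw [sympTransvection_mulVec, sympForm_sub_right, h, h', sub_self, mul_zero, zero_smul, add_zero]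
  · change Cfsg.sympTransvection m (v' - v) _ *ᵥ v = v'
    rw [sympTransvection_mulVec, sympForm_sub_right, sympForm_self, sub_zero, inv_mul_cancel₀ hvv, one_smul]
    abel

theorem trans2 (u v v' : Fin m ⊕ Fin m → F) (h : Cfsg.sympForm m F u v = 1)
    (h' : Cfsg.sympForm m F u v' = 1) :
    ∃ A ∈ transvectionSubgroup F m, (A : Matrix (Fin m ⊕ Fin m) (Fin m ⊕ Fin m) F) *ᵥ u = u ∧
      (A : Matrix (Fin m ⊕ Fin m) (Fin m ⊕ Fin m) F) *ᵥ v = v' := by
  by_cases hvv : Cfsg.sympForm m F v v' = 0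
  · have h1 : Cfsg.sympForm m F u (u + v) = 1 := by
      rw [sympForm_add_right, sympForm_self, h, zero_add]
    have h2 : Cfsg.sympForm m F v (u + v) ≠ 0 := by
      rw [sympForm_add_right, sympForm_self, add_zero, sympForm_swap, h]; simp
    have h3 : Cfsg.sympForm m F (u + v) v' ≠ 0 := by
      rw [sympForm_add_left, h', hvv, add_zero]; exact one_ne_zero
    obtain ⟨A, hA, hAu, hAv⟩ := trans2a m u v (u + v) h h1 h2
    obtain ⟨B, hB, hBu, hBv⟩ := trans2a m u (u + v) v' h1 h' h3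
    refine ⟨B * A, Subgroup.mul_mem _ hB hA, ?_, ?_⟩
    · change ((B : Matrix (Fin m ⊕ Fin m) (Fin m ⊕ Fin m) F) * (A : Matrix (Fin m ⊕ Fin m) (Fin m ⊕ Fin m) F)) *ᵥ u = u
      rw [← Matrix.mulVec_mulVec, hAu, hBu]
    · change ((B : Matrix (Fin m ⊕ Fin m) (Fin m ⊕ Fin m) F) * (A : Matrix (Fin m ⊕ Fin m) (Fin m ⊕ Fin m) F)) *ᵥ v = v'
      rw [← Matrix.mulVec_mulVec, hAv, hBv]
  · exact trans2a m u v v' h h' hvv

theorem trans_pair (u v u' v' : Fin m ⊕ Fin m → F) (h : Cfsg.sympForm m F u v = 1)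
    (h' : Cfsg.sympForm m F u' v' = 1) :
    ∃ A ∈ transvectionSubgroup F m, (A : Matrix (Fin m ⊕ Fin m) (Fin m ⊕ Fin m) F) *ᵥ u = u' ∧
      (A : Matrix (Fin m ⊕ Fin m) (Fin m ⊕ Fin m) F) *ᵥ v = v' := by
  have hu : u ≠ 0 := by
    rintro rfl; rw [sympForm_zero_left] at h; exact zero_ne_one h
  have hu' : u' ≠ 0 := by
    rintro rfl; rw [sympForm_zero_left] at h'; exact zero_ne_one h'
  obtain ⟨A, hA, hAu⟩ := trans_vec m u u' hu hu'
  have h1 : Cfsg.sympForm m F u' ((A : Matrix (Fin m ⊕ Fin m) (Fin m ⊕ Fin m) F) *ᵥ v) = 1 := by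
    rw [← hAu, sympForm_mulVec_of_mem m _ A.2, h]
  obtain ⟨B, hB, hBu, hBv⟩ := trans2 m u' _ v' h1 h'
  refine ⟨B * A, Subgroup.mul_mem _ hB hA, ?_, ?_⟩
  · change ((B : Matrix (Fin m ⊕ Fin m) (Fin m ⊕ Fin m) F) * (A : Matrix (Fin m ⊕ Fin m) (Fin m ⊕ Fin m) F)) *ᵥ u = u'
    rw [← Matrix.mulVec_mulVec, hAu, hBu]
  · change ((B : Matrix (Fin m ⊕ Fin m) (Fin m ⊕ Fin m) F) * (A : Matrix (Fin m ⊕ Fin m) (Fin m ⊕ Fin m) F)) *ᵥ v = v'
    rw [← Matrix.mulVec_mulVec, hBv]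

/-- The subgroup generated by the symplectic transvections with vector in a submodule `W`. -/
def tsOn (W : Submodule F (Fin m ⊕ Fin m → F)) : Subgroup (Matrix.symplecticGroup (Fin m) F) :=
  Subgroup.closure {A : Matrix.symplecticGroup (Fin m) F | ∃ w ∈ W, ∃ c : F,
    (A : Matrix (Fin m ⊕ Fin m) (Fin m ⊕ Fin m) F) = Cfsg.sympTransvection m w c}

theorem tsOn_le (W : Submodule F (Fin m ⊕ Fin m → F)) : tsOn m W ≤ transvectionSubgroup F m := by
  apply Subgroup.closure_mono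
  rintro A ⟨w, -, c, h⟩
  exact ⟨w, c, h⟩

theorem tsOn_fix (W : Submodule F (Fin m ⊕ Fin m → F)) (x : Fin m ⊕ Fin m → F)
    (hx : ∀ w ∈ W, Cfsg.sympForm m F x w = 0) (A : Matrix.symplecticGroup (Fin m) F)
    (hA : A ∈ tsOn m W) : (A : Matrix (Fin m ⊕ Fin m) (Fin m ⊕ Fin m) F) *ᵥ x = x := by
  unfold tsOn at hA
  induction hA using Subgroup.closure_induction with
  | mem A hA =>
    obtain ⟨w, hw, c, hAw⟩ := hA
    rw [hAw, sympTransvection_mulVec, hx w hw, mul_zero, zero_smul, add_zero]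
  | one =>
    change (1 : Matrix (Fin m ⊕ Fin m) (Fin m ⊕ Fin m) F) *ᵥ x = x
    rw [Matrix.one_mulVec]
  | mul A B _ _ hA hB =>
    change ((A : Matrix (Fin m ⊕ Fin m) (Fin m ⊕ Fin m) F) * (B : Matrix (Fin m ⊕ Fin m) (Fin m ⊕ Fin m) F)) *ᵥ x = x
    rw [← Matrix.mulVec_mulVec, hB, hA]
  | inv A _ hA =>
    have h1 : ((A⁻¹ * A : Matrix.symplecticGroup (Fin m) F) : Matrix (Fin m ⊕ Fin m) (Fin m ⊕ Fin m) F) *ᵥ x = x := by
      rw [inv_mul_cancel]
      change (1 : Matrix (Fin m ⊕ Fin m) (Fin m ⊕ Fin m) F) *ᵥ x = x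
      rw [Matrix.one_mulVec]
    change (((A⁻¹ : Matrix.symplecticGroup (Fin m) F) : Matrix (Fin m ⊕ Fin m) (Fin m ⊕ Fin m) F) *
      (A : Matrix (Fin m ⊕ Fin m) (Fin m ⊕ Fin m) F)) *ᵥ x = x at h1
    rw [← Matrix.mulVec_mulVec, hA] at h1
    exact h1

theorem transvection_mem_tsOn (W : Submodule F (Fin m ⊕ Fin m → F)) (w : Fin m ⊕ Fin m → F) (hw : w ∈ W)
    (c : F) :
    (⟨Cfsg.sympTransvection m w c, Cfsg.Agent.S0764.result m w c⟩ : Matrix.symplecticGroup (Fin m) F) ∈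
      tsOn m W :=
  Subgroup.subset_closure ⟨w, hw, c, rfl⟩

theorem rel_trans1 (W : Submodule F (Fin m ⊕ Fin m → F)) (u u' : Fin m ⊕ Fin m → F) (hu : u ∈ W)
    (hu' : u' ∈ W) (h : Cfsg.sympForm m F u u' ≠ 0) :
    ∃ A ∈ tsOn m W, (A : Matrix (Fin m ⊕ Fin m) (Fin m ⊕ Fin m) F) *ᵥ u = u' ∧
      ∀ x ∈ W, (A : Matrix (Fin m ⊕ Fin m) (Fin m ⊕ Fin m) F) *ᵥ x ∈ W := by
  refine ⟨⟨Cfsg.sympTransvection m (u' - u) (Cfsg.sympForm m F u u')⁻¹, Cfsg.Agent.S0764.result _ _ _⟩,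
    transvection_mem_tsOn _ _ _ (W.sub_mem hu' hu) _, ?_, ?_⟩
  · change Cfsg.sympTransvection m (u' - u) _ *ᵥ u = u'
    rw [sympTransvection_mulVec, sympForm_sub_right, sympForm_self, sub_zero, inv_mul_cancel₀ h, one_smul]
    abel
  · intro x hx
    change Cfsg.sympTransvection m (u' - u) _ *ᵥ x ∈ W
    rw [sympTransvection_mulVec]
    exact W.add_mem hx (W.smul_mem _ (W.sub_mem hu' hu))

theorem rel_trans_vec (W : Submodule F (Fin m ⊕ Fin m → F))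
    (hND : ∀ x ∈ W, x ≠ 0 → ∃ a ∈ W, Cfsg.sympForm m F x a ≠ 0)
    (u u' : Fin m ⊕ Fin m → F) (huW : u ∈ W) (hu'W : u' ∈ W) (hu : u ≠ 0) (hu' : u' ≠ 0) :
    ∃ A ∈ tsOn m W, (A : Matrix (Fin m ⊕ Fin m) (Fin m ⊕ Fin m) F) *ᵥ u = u' ∧
      ∀ x ∈ W, (A : Matrix (Fin m ⊕ Fin m) (Fin m ⊕ Fin m) F) *ᵥ x ∈ W := by
  by_cases h : Cfsg.sympForm m F u u' = 0
  · obtain ⟨z, hzW, hz1, hz2⟩ : ∃ z ∈ W, Cfsg.sympForm m F u z ≠ 0 ∧ Cfsg.sympForm m F z u' ≠ 0 := by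
      obtain ⟨a, haW, ha⟩ := hND u huW hu
      obtain ⟨b, hbW, hb⟩ := hND u' hu'W hu'
      by_cases h1 : Cfsg.sympForm m F u' a = 0
      · by_cases h2 : Cfsg.sympForm m F u b = 0
        · refine ⟨a + b, W.add_mem haW hbW, ?_, ?_⟩
          · rw [sympForm_add_right, h2, add_zero]; exact ha
          · rw [sympForm_swap, sympForm_add_right, h1, zero_add]; exact neg_ne_zero.mpr hb
        · exact ⟨b, hbW, h2, by rw [sympForm_swap]; exact neg_ne_zero.mpr hb⟩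
      · exact ⟨a, haW, ha, by rw [sympForm_swap]; exact neg_ne_zero.mpr h1⟩
    obtain ⟨A, hA, hAu, hAW⟩ := rel_trans1 m W u z huW hzW hz1
    obtain ⟨B, hB, hBz, hBW⟩ := rel_trans1 m W z u' hzW hu'W hz2
    refine ⟨B * A, Subgroup.mul_mem _ hB hA, ?_, ?_⟩
    · change ((B : Matrix (Fin m ⊕ Fin m) (Fin m ⊕ Fin m) F) * (A : Matrix (Fin m ⊕ Fin m) (Fin m ⊕ Fin m) F)) *ᵥ u = u'
      rw [← Matrix.mulVec_mulVec, hAu, hBz]
    · intro x hx
      change ((B : Matrix (Fin m ⊕ Fin m) (Fin m ⊕ Fin m) F) * (A : Matrix (Fin m ⊕ Fin m) (Fin m ⊕ Fin m) F)) *ᵥ x ∈ W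
      rw [← Matrix.mulVec_mulVec]
      exact hBW _ (hAW _ hx)
  · exact rel_trans1 m W u u' huW hu'W h

theorem rel_trans2a (W : Submodule F (Fin m ⊕ Fin m → F)) (u v v' : Fin m ⊕ Fin m → F)
    (hvW : v ∈ W) (hv'W : v' ∈ W) (h : Cfsg.sympForm m F u v = 1)
    (h' : Cfsg.sympForm m F u v' = 1) (hvv : Cfsg.sympForm m F v v' ≠ 0) :
    ∃ A ∈ tsOn m W, (A : Matrix (Fin m ⊕ Fin m) (Fin m ⊕ Fin m) F) *ᵥ u = u ∧
      (A : Matrix (Fin m ⊕ Fin m) (Fin m ⊕ Fin m) F) *ᵥ v = v' := by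
  refine ⟨⟨Cfsg.sympTransvection m (v' - v) (Cfsg.sympForm m F v v')⁻¹, Cfsg.Agent.S0764.result _ _ _⟩,
    transvection_mem_tsOn _ _ _ (W.sub_mem hv'W hvW) _, ?_, ?_⟩
  · change Cfsg.sympTransvection m (v' - v) _ *ᵥ u = u
    rw [sympTransvection_mulVec, sympForm_sub_right, h, h', sub_self, mul_zero, zero_smul, add_zero]
  · change Cfsg.sympTransvection m (v' - v) _ *ᵥ v = v'
    rw [sympTransvection_mulVec, sympForm_sub_right, sympForm_self, sub_zero, inv_mul_cancel₀ hvv, one_smul]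
    abel

theorem rel_trans2 (W : Submodule F (Fin m ⊕ Fin m → F)) (u v v' : Fin m ⊕ Fin m → F)
    (huW : u ∈ W) (hvW : v ∈ W) (hv'W : v' ∈ W) (h : Cfsg.sympForm m F u v = 1)
    (h' : Cfsg.sympForm m F u v' = 1) :
    ∃ A ∈ tsOn m W, (A : Matrix (Fin m ⊕ Fin m) (Fin m ⊕ Fin m) F) *ᵥ u = u ∧
      (A : Matrix (Fin m ⊕ Fin m) (Fin m ⊕ Fin m) F) *ᵥ v = v' := by
  by_cases hvv : Cfsg.sympForm m F v v' = 0
  · have h1 : Cfsg.sympForm m F u (u + v) = 1 := by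
      rw [sympForm_add_right, sympForm_self, h, zero_add]
    have h2 : Cfsg.sympForm m F v (u + v) ≠ 0 := by
      rw [sympForm_add_right, sympForm_self, add_zero, sympForm_swap, h]; simp
    have h3 : Cfsg.sympForm m F (u + v) v' ≠ 0 := by
      rw [sympForm_add_left, h', hvv, add_zero]; exact one_ne_zero
    obtain ⟨A, hA, hAu, hAv⟩ := rel_trans2a m W u v (u + v) hvW (W.add_mem huW hvW) h h1 h2
    obtain ⟨B, hB, hBu, hBv⟩ := rel_trans2a m W u (u + v) v' (W.add_mem huW hvW) hv'W h1 h' h3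
    refine ⟨B * A, Subgroup.mul_mem _ hB hA, ?_, ?_⟩
    · change ((B : Matrix (Fin m ⊕ Fin m) (Fin m ⊕ Fin m) F) * (A : Matrix (Fin m ⊕ Fin m) (Fin m ⊕ Fin m) F)) *ᵥ u = u
      rw [← Matrix.mulVec_mulVec, hAu, hBu]
    · change ((B : Matrix (Fin m ⊕ Fin m) (Fin m ⊕ Fin m) F) * (A : Matrix (Fin m ⊕ Fin m) (Fin m ⊕ Fin m) F)) *ᵥ v = v'
      rw [← Matrix.mulVec_mulVec, hAv, hBv]
  · exact rel_trans2a m W u v v' hvW hv'W h h' hvv

theorem rel_trans_pair (W : Submodule F (Fin m ⊕ Fin m → F))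
    (hND : ∀ x ∈ W, x ≠ 0 → ∃ a ∈ W, Cfsg.sympForm m F x a ≠ 0)
    (u v u' v' : Fin m ⊕ Fin m → F) (huW : u ∈ W) (hvW : v ∈ W) (hu'W : u' ∈ W) (hv'W : v' ∈ W)
    (h : Cfsg.sympForm m F u v = 1) (h' : Cfsg.sympForm m F u' v' = 1) :
    ∃ A ∈ tsOn m W, (A : Matrix (Fin m ⊕ Fin m) (Fin m ⊕ Fin m) F) *ᵥ u = u' ∧
      (A : Matrix (Fin m ⊕ Fin m) (Fin m ⊕ Fin m) F) *ᵥ v = v' := by
  have hu : u ≠ 0 := by
    rintro rfl; rw [sympForm_zero_left] at h; exact zero_ne_one h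
  have hu' : u' ≠ 0 := by
    rintro rfl; rw [sympForm_zero_left] at h'; exact zero_ne_one h'
  obtain ⟨A, hA, hAu, hAW⟩ := rel_trans_vec m W hND u u' huW hu'W hu hu'
  have h1 : Cfsg.sympForm m F u' ((A : Matrix (Fin m ⊕ Fin m) (Fin m ⊕ Fin m) F) *ᵥ v) = 1 := by
    rw [← hAu, sympForm_mulVec_of_mem m _ A.2, h]
  obtain ⟨B, hB, hBu, hBv⟩ := rel_trans2 m W u' _ v' hu'W (hAW v hvW) hv'W h1 h'
  refine ⟨B * A, Subgroup.mul_mem _ hB hA, ?_, ?_⟩
  · change ((B : Matrix (Fin m ⊕ Fin m) (Fin m ⊕ Fin m) F) * (A : Matrix (Fin m ⊕ Fin m) (Fin m ⊕ Fin m) F)) *ᵥ u = u'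
    rw [← Matrix.mulVec_mulVec, hAu, hBu]
  · change ((B : Matrix (Fin m ⊕ Fin m) (Fin m ⊕ Fin m) F) * (A : Matrix (Fin m ⊕ Fin m) (Fin m ⊕ Fin m) F)) *ᵥ v = v'
    rw [← Matrix.mulVec_mulVec, hBv]

theorem sympForm_single_inr (x : Fin m ⊕ Fin m → F) (i : Fin m) :
    Cfsg.sympForm m F x (Pi.single (Sum.inr i) 1) = - x (Sum.inl i) := by
  unfold Cfsg.sympForm
  rw [Matrix.mulVec_single_one]
  simp [dotProduct, Fintype.sum_sum_type, Matrix.J, Matrix.col, Matrix.one_apply]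

theorem sympForm_single_inl (x : Fin m ⊕ Fin m → F) (i : Fin m) :
    Cfsg.sympForm m F x (Pi.single (Sum.inl i) 1) = x (Sum.inr i) := by
  unfold Cfsg.sympForm
  rw [Matrix.mulVec_single_one]
  simp [dotProduct, Fintype.sum_sum_type, Matrix.J, Matrix.col, Matrix.one_apply]

/-- Vectors whose first `k` coordinate pairs vanish. -/
def Wk (k : ℕ) : Submodule F (Fin m ⊕ Fin m → F) where
  carrier := {x | ∀ i : Fin m, (i : ℕ) < k → x (Sum.inl i) = 0 ∧ x (Sum.inr i) = 0}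
  add_mem' := by
    intro a b ha hb i hi
    simp [(ha i hi).1, (ha i hi).2, (hb i hi).1, (hb i hi).2]
  zero_mem' := by
    intro i hi
    simp
  smul_mem' := by
    intro c x hx i hi
    simp [(hx i hi).1, (hx i hi).2]

theorem mem_Wk (k : ℕ) (x : Fin m ⊕ Fin m → F) :
    x ∈ Wk (F := F) m k ↔ ∀ i : Fin m, (i : ℕ) < k → x (Sum.inl i) = 0 ∧ x (Sum.inr i) = 0 := Iff.rfl

theorem Wk_ND (k : ℕ) : ∀ x ∈ Wk (F := F) m k, x ≠ 0 → ∃ a ∈ Wk (F := F) m k, Cfsg.sympForm m F x a ≠ 0 := by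
  intro x hx hx0
  obtain ⟨j, hj⟩ : ∃ j, x j ≠ 0 := by
    by_contra hcon
    apply hx0
    ext j
    by_contra hj
    exact hcon ⟨j, hj⟩
  rcases j with i | i
  · have hik : ¬ (i : ℕ) < k := fun h => hj (hx i h).1
    refine ⟨Pi.single (Sum.inr i) 1, ?_, ?_⟩
    · intro i' hi'
      have hne : i' ≠ i := by rintro rfl; exact hik hi'
      simp [hne]
    · rw [sympForm_single_inr]; exact neg_ne_zero.mpr hj
  · have hik : ¬ (i : ℕ) < k := fun h => hj (hx i h).2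
    refine ⟨Pi.single (Sum.inl i) 1, ?_, ?_⟩
    · intro i' hi'
      have hne : i' ≠ i := by rintro rfl; exact hik hi'
      simp [hne]
    · rw [sympForm_single_inl]; exact hj

theorem sp_mem_of_fix_aux (d : ℕ) : ∀ (k : ℕ), k + d = m → ∀ A : Matrix.symplecticGroup (Fin m) F,
    (∀ i : Fin m, (i : ℕ) < k →
      (A : Matrix (Fin m ⊕ Fin m) (Fin m ⊕ Fin m) F) *ᵥ Pi.single (Sum.inl i) 1 = Pi.single (Sum.inl i) 1 ∧
      (A : Matrix (Fin m ⊕ Fin m) (Fin m ⊕ Fin m) F) *ᵥ Pi.single (Sum.inr i) 1 = Pi.single (Sum.inr i) 1) →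
    A ∈ transvectionSubgroup F m := by
  induction d with
  | zero =>
    intro k hk A hA
    have h1 : (A : Matrix (Fin m ⊕ Fin m) (Fin m ⊕ Fin m) F) = 1 := by
      ext r c
      have hc : (A : Matrix (Fin m ⊕ Fin m) (Fin m ⊕ Fin m) F) *ᵥ Pi.single c 1 = Pi.single c 1 := by
        rcases c with i | i
        · exact (hA i (by have := i.2; omega)).1
        · exact (hA i (by have := i.2; omega)).2
      have := congrFun hc r
      rw [Matrix.mulVec_single_one] at this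
      simpa [Matrix.one_apply, Pi.single_apply, eq_comm] using this
    have h2 : A = 1 := Subtype.ext h1
    rw [h2]; exact Subgroup.one_mem _
  | succ d ih =>
    intro k hk A hA
    have hkm : k < m := by omega
    set i0 : Fin m := ⟨k, hkm⟩ with hi0
    set a : Fin m ⊕ Fin m → F := Pi.single (Sum.inr i0) 1 with ha
    set b : Fin m ⊕ Fin m → F := Pi.single (Sum.inl i0) 1 with hb
    have haW : a ∈ Wk (F := F) m k := by
      intro i hi
      have hne : i ≠ i0 := by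
        intro h; rw [h, hi0] at hi; simp at hi
      simp [ha, hne]
    have hbW : b ∈ Wk (F := F) m k := by
      intro i hi
      have hne : i ≠ i0 := by
        intro h; rw [h, hi0] at hi; simp at hi
      simp [hb, hne]
    have hAW : ∀ x ∈ Wk (F := F) m k, (A : Matrix (Fin m ⊕ Fin m) (Fin m ⊕ Fin m) F) *ᵥ x ∈ Wk (F := F) m k := by
      intro x hx i hi
      refine ⟨?_, ?_⟩
      · have h1 := sympForm_single_inr m ((A : Matrix (Fin m ⊕ Fin m) (Fin m ⊕ Fin m) F) *ᵥ x) i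
        rw [← (hA i hi).2, sympForm_mulVec_of_mem m _ A.2, sympForm_single_inr, (hx i hi).1] at h1
        simpa using h1.symm
      · have h1 := sympForm_single_inl m ((A : Matrix (Fin m ⊕ Fin m) (Fin m ⊕ Fin m) F) *ᵥ x) i
        rw [← (hA i hi).1, sympForm_mulVec_of_mem m _ A.2, sympForm_single_inl, (hx i hi).2] at h1
        exact h1.symm
    have hab : Cfsg.sympForm m F a b = 1 := by
      rw [hb, sympForm_single_inl, ha]; simp
    have hAab : Cfsg.sympForm m F ((A : Matrix (Fin m ⊕ Fin m) (Fin m ⊕ Fin m) F) *ᵥ a)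
        ((A : Matrix (Fin m ⊕ Fin m) (Fin m ⊕ Fin m) F) *ᵥ b) = 1 := by
      rw [sympForm_mulVec_of_mem m _ A.2, hab]
    obtain ⟨T, hT, hTa, hTb⟩ := rel_trans_pair m (Wk (F := F) m k) (Wk_ND m k) _ _ a b
      (hAW a haW) (hAW b hbW) haW hbW hAab hab
    have hTfix : ∀ i : Fin m, (i : ℕ) < k →
        (T : Matrix (Fin m ⊕ Fin m) (Fin m ⊕ Fin m) F) *ᵥ Pi.single (Sum.inl i) 1 = Pi.single (Sum.inl i) 1 ∧
        (T : Matrix (Fin m ⊕ Fin m) (Fin m ⊕ Fin m) F) *ᵥ Pi.single (Sum.inr i) 1 = Pi.single (Sum.inr i) 1 := by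
      intro i hi
      refine ⟨tsOn_fix m _ _ ?_ T hT, tsOn_fix m _ _ ?_ T hT⟩
      · intro w hw
        rw [sympForm_swap, sympForm_single_inl, (hw i hi).2, neg_zero]
      · intro w hw
        rw [sympForm_swap, sympForm_single_inr, (hw i hi).1, neg_zero, neg_zero]
    have hTA : T * A ∈ transvectionSubgroup F m := by
      apply ih (k + 1) (by omega)
      intro i hi
      by_cases hik : (i : ℕ) < k
      · refine ⟨?_, ?_⟩
        · change ((T : Matrix (Fin m ⊕ Fin m) (Fin m ⊕ Fin m) F) * (A : Matrix (Fin m ⊕ Fin m) (Fin m ⊕ Fin m) F)) *ᵥ _ = _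
          rw [← Matrix.mulVec_mulVec, (hA i hik).1, (hTfix i hik).1]
        · change ((T : Matrix (Fin m ⊕ Fin m) (Fin m ⊕ Fin m) F) * (A : Matrix (Fin m ⊕ Fin m) (Fin m ⊕ Fin m) F)) *ᵥ _ = _
          rw [← Matrix.mulVec_mulVec, (hA i hik).2, (hTfix i hik).2]
      · have hii : i = i0 := by
          apply Fin.ext
          rw [hi0]
          simp only
          omega
        rw [hii]
        refine ⟨?_, ?_⟩
        · change ((T : Matrix (Fin m ⊕ Fin m) (Fin m ⊕ Fin m) F) * (A : Matrix (Fin m ⊕ Fin m) (Fin m ⊕ Fin m) F)) *ᵥ b = b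
          rw [← Matrix.mulVec_mulVec, hTb]
        · change ((T : Matrix (Fin m ⊕ Fin m) (Fin m ⊕ Fin m) F) * (A : Matrix (Fin m ⊕ Fin m) (Fin m ⊕ Fin m) F)) *ᵥ a = a
          rw [← Matrix.mulVec_mulVec, hTa]
    have hT' : T ∈ transvectionSubgroup F m := tsOn_le m _ hT
    have hfin : A = T⁻¹ * (T * A) := by group
    rw [hfin]
    exact Subgroup.mul_mem _ (Subgroup.inv_mem _ hT') hTA

theorem transvectionSubgroup_eq_top : transvectionSubgroup F m = ⊤ := by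
  rw [eq_top_iff]
  intro A _
  exact sp_mem_of_fix_aux m m 0 (by omega) A (by intro i hi; omega)

end

end Cfsg.Agent.Lib.Helper5
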